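import Cfsg.Agent.H7.SZ8

/-! The unitary rank one groups: the group law of `Q` and the canonical form of `t ρ t`. -/

set_option autoImplicit false
set_option linter.unusedSimpArgs false
set_option linter.unusedSectionVars false
set_option linter.unusedVariables false

namespace Cfsg.Agent.H1.BN

open MulAction Subgroup

variable {G Ω : Type*} [Group G] [MulAction G Ω] {a : Ω} {t : G} {Q : Subgroup G}

theorem law_data (hS : IsRankOneSetup G Ω a t Q)
    {E : Type} [Field E] [StarRing E] [CharP E 2] {w : E} (hw : w + star w = 1)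
    (pt : E → E → Ω) (h0 : pt 0 0 = t • a) (hne : ∀ x η, η + star η = x * star x → pt x η ≠ a)
    (hsurj : ∀ c, c ≠ a → ∃ x η, η + star η = x * star x ∧ pt x η = c)
    (hinj : ∀ x η x' η', η + star η = x * star x → η' + star η' = x' * star x' →
      pt x η = pt x' η' → x = x' ∧ η = η')
    (hu : ∀ y : E, star y = y → ∃ z ∈ Q, (∀ g ∈ Q, z * g = g * z) ∧
      ∀ x η, η + star η = x * star x → z • pt x η = pt x (η + y))
    (ht : ∀ x η, η + star η = x * star x → η ≠ 0 → t • pt x η = pt (x / η) η⁻¹)
    (hinv : ∀ g ∈ Q, ∀ x η, η + star η = x * star x → g • t • a = pt x η →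
      g⁻¹ • t • a = pt x (star η))
    (hh : ∀ ρ ∈ Q, ∀ g ∈ Q, ∀ f ∈ Q, ∀ h : G, h • a = a → h • t • a = t • a →
      t * ρ * t = g * h * t * f →
      ∃ c : E, ∀ x η, η + star η = x * star x →
        (t * h * t) • pt x η = pt (c * x) (c * star c * η)) :
    ∃ R : E → E → G, (∀ x η, η + star η = x * star x → R x η ∈ Q) ∧
      (∀ x η, η + star η = x * star x → R x η • t • a = pt x η) ∧
      (∀ x η x' η', η + star η = x * star x → η' + star η' = x' * star x' →
        R x η * R x' η' = R (x + x') (η + η' + star x * x')) ∧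
      ∀ x η, η + star η = x * star x → x ≠ 0 → ∃ g ∈ Q, ∃ f ∈ Q, ∃ k : G, k • a = a ∧
        k • t • a = t • a ∧ t * R x η * t = g * k * t * f ∧
        g⁻¹ • t • a = pt (x / η) (star η⁻¹) ∧ ∀ x' η', η' + star η' = x' * star x' →
          (t * k * t) • pt x' η' =
            pt (star η ^ 2 / η * x') (star η ^ 2 / η * star (star η ^ 2 / η) * η') := by
  classical
  have h2 : (2 : E) = 0 := CharP.cast_eq_zero E 2
  obtain ⟨R, hR⟩ : ∃ R : E → E → G, ∀ x η, η + star η = x * star x →
      R x η ∈ Q ∧ R x η • t • a = pt x η := by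
    refine ⟨fun x η => if h : η + star η = x * star x then
      (H4.RO.exists_Q_b hS (hne x η h)).choose else 1, fun x η h => ?_⟩
    simp only [dif_pos h]
    exact (H4.RO.exists_Q_b hS (hne x η h)).choose_spec
  have hRQ : ∀ x η, η + star η = x * star x → R x η ∈ Q := fun x η h => (hR x η h).1
  have hRb : ∀ x η, η + star η = x * star x → R x η • t • a = pt x η := fun x η h => (hR x η h).2
  have Req : ∀ g ∈ Q, ∀ x η, η + star η = x * star x → g • t • a = pt x η → g = R x η :=
    fun g hg x η h e => H4.RO.Q_eq_of_smul_eq hS hg (hRQ _ _ h) (H4.RO.ta_ne hS)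
      (e.trans (hRb _ _ h).symm)
  have h00 : (0 : E) + star 0 = 0 * star 0 := by simp
  have R0 : R 0 0 = 1 := (Req 1 Q.one_mem 0 0 h00 (by rw [one_smul, h0])).symm
  have hst : ∀ x η : E, η + star η = x * star x → star η + star (star η) = x * star x :=
    fun x η h => by rw [star_star, add_comm, h]
  have Rinv : ∀ x η, η + star η = x * star x → (R x η)⁻¹ = R x (star η) := fun x η h =>
    Req _ (Q.inv_mem (hRQ _ _ h)) _ _ (hst _ _ h) (hinv _ (hRQ _ _ h) _ _ h (hRb _ _ h))
  have okre : ∀ y : E, star y = y → y + star y = 0 * star 0 := fun y hy => by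
    rw [hy]; linear_combination y * h2
  have okadd : ∀ x η y : E, star y = y → η + star η = x * star x →
      η + y + star (η + y) = x * star x := fun x η y hy h => by
    rw [star_add, hy]; linear_combination h + y * h2
  have oklaw : ∀ x η x' η' : E, η + star η = x * star x → η' + star η' = x' * star x' →
      η + η' + star x * x' + star (η + η' + star x * x') = (x + x') * star (x + x') :=
    fun x η x' η' h h' => by
    simp only [star_add, star_mul', star_star]
    linear_combination h + h'
  have okt : ∀ x η : E, η + star η = x * star x → η ≠ 0 →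
      η⁻¹ + star η⁻¹ = x / η * star (x / η) := fun x η h hη => by
    have : star η ≠ 0 := by simpa using hη
    simp only [star_inv₀, star_div₀]
    field_simp
    linear_combination h
  have okc : ∀ c x η : E, η + star η = x * star x →
      c * star c * η + star (c * star c * η) = c * x * star (c * x) := fun c x η h => by
    simp only [star_mul', star_star]
    linear_combination c * star c * h
  -- the central elements
  have hU : ∀ y : E, star y = y → (∀ g ∈ Q, R 0 y * g = g * R 0 y) ∧
      ∀ x η, η + star η = x * star x → R 0 y * R x η = R x (η + y) := fun y hy => by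
    obtain ⟨z, hz, hc, hp⟩ := hu y hy
    have e : z = R 0 y := Req z hz 0 y (okre y hy) (by rw [← h0, hp 0 0 h00, zero_add])
    subst e
    refine ⟨hc, fun x η h => Req _ (Q.mul_mem hz (hRQ _ _ h)) _ _ (okadd _ _ _ hy h) ?_⟩
    rw [mul_smul, hRb _ _ h, hp _ _ h]
  let L : E → E → Prop := fun α β => ∀ η θ, η + star η = α * star α → θ + star θ = β * star β →
    R α η * R β θ = R (α + β) (η + θ + star α * β)
  have L1 : ∀ α β η θ, η + star η = α * star α → θ + star θ = β * star β →
      R α η * R β θ = R (α + β) (η + θ + star α * β) → L α β := by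
    intro α β η θ h h' e η' θ' k k'
    have hy : star (η' - η) = η' - η := by
      rw [star_sub]; linear_combination k - h - (η' - η) * h2
    have hy' : star (θ' - θ) = θ' - θ := by
      rw [star_sub]; linear_combination k' - h' - (θ' - θ) * h2
    have e1 : R α η' = R 0 (η' - η) * R α η := by rw [(hU _ hy).2 _ _ h]; congr 1; ring
    have e2 : R β θ' = R 0 (θ' - θ) * R β θ := by rw [(hU _ hy').2 _ _ h']; congr 1; ring
    rw [e1, e2, mul_assoc, ← mul_assoc (R α η), ← (hU _ hy').1 _ (hRQ _ _ h), mul_assoc, e,
      (hU _ hy').2 _ _ (oklaw _ _ _ _ h h'), (hU _ hy).2 _ _ (okadd _ _ _ hy' (oklaw _ _ _ _ h h'))]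
    congr 1; ring
  have dec : ∀ x η : E, η + star η = x * star x → x ≠ 0 → ∃ g ∈ Q, ∃ f ∈ Q, ∃ k : G, k • a = a ∧
      k • t • a = t • a ∧ t * R x η * t = g * k * t * f ∧ g = R (x / η) η⁻¹ ∧
      f = R (x / star η) η⁻¹ ∧ ∀ x' η', η' + star η' = x' * star x' →
          (t * k * t) • pt x' η' =
            pt (star η ^ 2 / η * x') (star η ^ 2 / η * star (star η ^ 2 / η) * η') := by
    intro x η h hx
    have hx' : star x ≠ 0 := by simpa using hx
    have hN : η + star η ≠ 0 := by rw [h]; exact mul_ne_zero hx hx'
    have hη : η ≠ 0 := by rintro rfl; simp at hN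
    have hη' : star η ≠ 0 := by simpa using hη
    have hρ := hRQ _ _ h
    have hmove : (t * R x η * t) • a ≠ a := by
      rw [mul_smul, mul_smul, hRb _ _ h, ht _ _ h hη]
      exact hne _ _ (okt _ _ h hη)
    obtain ⟨x1, f, hx1, hf, e⟩ := H4.RO.exists_canon hS hmove
    obtain ⟨g, hg, k, hk1, hk2, rfl⟩ := H4.RO.decomp hS hx1
    obtain ⟨c, hc⟩ := hh _ hρ g hg f hf k hk1 hk2 e
    have tinv := H4.RO.t_inv hS
    have tt1 := hS.mul_self
    have eg : g = R (x / η) η⁻¹ := by
      refine Req g hg _ _ (okt _ _ h hη) ?_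
      rw [← ht _ _ h hη, ← hRb _ _ h, ← mul_smul t, ← mul_smul (t * R x η), e, mul_smul, mul_smul,
        mul_smul, H4.RO.Q_fix hS hf, hk2]
    have hs := hst _ _ h
    have ef : f = R (x / star η) η⁻¹ := by
      have e1 : f⁻¹ = R (x / star η) (star η)⁻¹ := by
        refine Req _ (Q.inv_mem hf) _ _ (okt _ _ hs hη') ?_
        have e2 : t * (R x η)⁻¹ * t = f⁻¹ * t * (k⁻¹ * g⁻¹) := by
          have := congrArg (·⁻¹) e
          simp only [mul_inv_rev, tinv] at this
          rw [mul_assoc, this]; group
        rw [← ht _ _ hs hη', ← hRb _ _ hs, ← Rinv _ _ h, ← mul_smul t, ← mul_smul (t * (R x η)⁻¹),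
          e2, mul_smul, mul_smul, mul_smul, H4.RO.Q_fix hS (Q.inv_mem hg),
          inv_smul_eq_iff.2 hk1.symm]
      rw [← inv_inv f, e1, Rinv _ _ (okt _ _ hs hη'), star_inv₀, star_star]
    have okf : η⁻¹ + star η⁻¹ = x / star η * star (x / star η) := by
      have := hst _ _ (okt _ _ hs hη')
      rwa [star_inv₀, star_star] at this
    have okg := hst _ _ (okt _ _ h hη)
    have hne1 : star η⁻¹ ≠ 0 := by simpa using hη
    have eginv : g⁻¹ = R (x / η) (star η⁻¹) := by rw [eg, Rinv _ _ (okt _ _ h hη)]
    have ec : c = star η ^ 2 / η := by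
      have e2 : t * g⁻¹ * t = (t * k * t) * f * t * (R x η)⁻¹ := by
        have e3 : k * t * f = g⁻¹ * (t * R x η * t) := by rw [e]; group
        calc t * g⁻¹ * t = t * (g⁻¹ * (t * R x η * t)) * t⁻¹ * (R x η)⁻¹ := by group
          _ = _ := by rw [← e3, tinv]; group
      have e4 := congrArg (· • a) e2
      simp only [mul_smul (t * g⁻¹), mul_smul (t * k * t * f * t), mul_smul (t * k * t * f),
        mul_smul (t * k * t), mul_smul t g⁻¹, H4.RO.Q_fix hS (Q.inv_mem hρ)] at e4
      rw [eginv, hRb _ _ okg, ht _ _ okg hne1, ef, hRb _ _ okf, hc _ _ okf] at e4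
      have e5 := (hinj _ _ _ _ (okt _ _ okg hne1) (okc _ _ _ okf) e4).1
      rw [star_inv₀] at e5
      field_simp at e5 ⊢
      linear_combination -e5
    exact ⟨g, hg, f, hf, k, hk1, hk2, e, eg, ef, ec ▸ hc⟩
  -- the main step
  have main : ∀ x η y : E, η + star η = x * star x → x ≠ 0 → star y = y → y ≠ 0 →
      L (x / star η) (x / (star η + y)) := by
    intro x η y h hx hy hy0
    have hx' : star x ≠ 0 := by simpa using hx
    have hN : η + star η ≠ 0 := by rw [h]; exact mul_ne_zero hx hx'
    have hη : η ≠ 0 := by rintro rfl; simp at hN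
    have hη' : star η ≠ 0 := by simpa using hη
    have hηy : star η + y ≠ 0 := by
      intro e
      have e' := congrArg star e
      rw [star_add, star_star, hy, star_zero] at e'
      exact hN (by linear_combination e + e' - y * h2)
    have hηy' : η + y ≠ 0 := by
      intro e
      have e' := congrArg star e
      rw [star_add, hy, star_zero] at e'
      exact hηy e'
    have hρ := hRQ _ _ h
    obtain ⟨g, hg, f, hf, k, hk1, hk2, e, eg, ef, hc⟩ := dec x η h hx
    have hs := hst _ _ h
    have okf : η⁻¹ + star η⁻¹ = x / star η * star (x / star η) := by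
      have := hst _ _ (okt _ _ hs hη')
      rwa [star_inv₀, star_star] at this
    have okg := hst _ _ (okt _ _ h hη)
    have eginv : g⁻¹ = R (x / η) (star η⁻¹) := by rw [eg, Rinv _ _ (okt _ _ h hη)]
    have ok' := okadd _ _ _ hy hs
    have okg' := okt _ _ ok' hηy
    refine L1 _ _ _ _ okf okg' ?_
    have okL := oklaw _ _ _ _ okf okg'
    refine Req _ (Q.mul_mem (hRQ _ _ okf) (hRQ _ _ okg')) _ _ okL ?_
    have hyi : star y⁻¹ = y⁻¹ := by rw [star_inv₀, hy]
    have ok2 := okadd _ _ _ hyi okg
    have hne2 : star η⁻¹ + y⁻¹ ≠ 0 := by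
      rw [star_inv₀, inv_add_inv hη' hy0]
      exact div_ne_zero hηy (mul_ne_zero hη' hy0)
    have e6 : R x η * R x (star η + y) = R 0 y := by
      rw [← (hU _ hy).2 _ _ hs, ← Rinv _ _ h, (hU _ hy).1 _ (Q.inv_mem hρ), mul_inv_cancel_left]
    have e7 : (g * k * t * f) • R (x / (star η + y)) (star η + y)⁻¹ • t • a =
        R 0 y⁻¹ • t • a := by
      rw [← e, hRb _ _ okg', ← ht _ _ ok' hηy, mul_smul, H4.RO.tta hS, ← hRb _ _ ok', mul_smul,
        ← mul_smul (R x η), e6, hRb _ _ (okre y hy), ht _ _ (okre y hy) hy0, hRb _ _ (okre _ hyi),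
        zero_div]
    have e8 : (t * k * t) • (f * R (x / (star η + y)) (star η + y)⁻¹) • t • a =
        t • pt (x / η) (star η⁻¹ + y⁻¹) := by
      rw [← hRb _ _ ok2, ← (hU _ hyi).2 _ _ okg, ← eginv, (hU _ hyi).1 _ (Q.inv_mem hg),
        mul_smul g⁻¹, ← e7]
      simp only [mul_smul, inv_smul_smul]
    apply smul_left_cancel (t * k * t)
    rw [← ef, e8, ht _ _ ok2 hne2, hc _ _ okL]
    simp only [star_inv₀, star_div₀, star_pow, star_star]
    have hne3 : y + star η ≠ 0 := by rwa [add_comm]
    congr 1
    · field_simp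
      grind
    · field_simp
      grind
  have indep : ∀ α β : E, star α * β + α * star β ≠ 0 → L α β := by
    intro α β hT
    have hα : α ≠ 0 := by rintro rfl; simp at hT
    have hβ : β ≠ 0 := by rintro rfl; simp at hT
    have hα' : star α ≠ 0 := by simpa using hα
    have hβ' : star β ≠ 0 := by simpa using hβ
    have hs : α + β ≠ 0 := by
      intro e
      have e1 : β = α := by linear_combination e - α * h2
      subst e1
      exact hT (by linear_combination β * star β * h2)
    have hs' : star α + star β ≠ 0 := by rw [← star_add]; exact star_ne_zero.2 hs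
    obtain ⟨y, hy⟩ : ∃ y, y = (star α * β + α * star β) / (α * star α * (β * star β)) := ⟨_, rfl⟩
    have hy0 : y ≠ 0 := by rw [hy]; positivity
    have hyr : star y = y := by
      rw [hy]
      simp only [star_div₀, star_add, star_mul', star_star]
      ring
    have hx : y * α * β / (α + β) ≠ 0 := by positivity
    have := main (y * α * β / (α + β)) (star (y * β / (α + β))) y (by
      simp only [star_div₀, star_add, star_mul', star_star, hyr]
      field_simp
      rw [hy]
      field_simp
      grind) hx hyr hy0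
    rw [star_star] at this
    have hd : y * β / (α + β) + y = y * α / (α + β) := by field_simp; grind
    rw [hd] at this
    convert this using 1 <;> field_simp
  have exN : ∀ β : E, ∃ θ, θ + star θ = β * star β := fun β =>
    ⟨β * star β * w, by
      simp only [star_mul', star_star]
      linear_combination β * star β * hw⟩
  have law : ∀ α β, L α β := by
    intro α β
    by_cases hT : star α * β + α * star β = 0
    swap
    · exact indep α β hT
    by_cases hα : α = 0
    · subst hα
      intro η θ h h'
      have hη : star η = η := by simp at h; linear_combination h - η * h2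
      rw [(hU _ hη).2 _ _ h']
      congr 1 <;> simp [add_comm]
    by_cases hβ : β = 0
    · subst hβ
      intro η θ h h'
      have hθ : star θ = θ := by simp at h'; linear_combination h' - θ * h2
      rw [← (hU _ hθ).1 _ (hRQ _ _ h), (hU _ hθ).2 _ _ h]
      congr 1 <;> simp
    by_cases hs : β = α
    · subst hs
      obtain ⟨η, h⟩ := exN β
      refine L1 _ _ η (star η) h (hst _ _ h) ?_
      rw [← Rinv _ _ h, mul_inv_cancel, ← R0]
      congr 1
      · linear_combination -β * h2
      · linear_combination -h - β * star β * h2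
    have hα' : star α ≠ 0 := by simpa using hα
    have hβ' : star β ≠ 0 := by simpa using hβ
    have hs1 : α + β ≠ 0 := fun e => hs (by linear_combination e - α * h2)
    obtain ⟨η, h⟩ := exN α
    obtain ⟨θ1, h1⟩ := exN (β + α * w)
    obtain ⟨θ2, h3⟩ := exN (α * w)
    have i1 : L (β + α * w) (α * w) := indep _ _ (by
      simp only [star_add, star_mul']
      intro e
      apply mul_ne_zero hα hβ'
      grind)
    have i2 : L α (β + α * w) := indep _ _ (by
      simp only [star_add, star_mul']
      intro e
      apply mul_ne_zero hα hα'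
      grind)
    have i3 : L (α + (β + α * w)) (α * w) := indep _ _ (by
      simp only [star_add, star_mul']
      intro e
      apply mul_ne_zero hα' hs1
      grind)
    have j1 := i1 _ _ h1 h3
    have k1 := oklaw _ _ _ _ h1 h3
    have eβ : β + α * w + α * w = β := by linear_combination α * w * h2
    rw [eβ] at j1 k1
    refine L1 _ _ _ _ h k1 ?_
    rw [← j1, ← mul_assoc, i2 _ _ h h1, i3 _ _ (oklaw _ _ _ _ h h1) h3]
    congr 1
    · linear_combination α * w * h2
    · simp only [star_add, star_mul']
      linear_combination star α * α * w * h2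
  refine ⟨R, hRQ, hRb, fun x η x' η' h h' => law x x' η η' h h', fun x η h hx => ?_⟩
  obtain ⟨g, hg, f, hf, k, hk1, hk2, e, eg, ef, hc⟩ := dec x η h hx
  have hη : η ≠ 0 := by
    rintro rfl
    simp [hx] at h
  exact ⟨g, hg, f, hf, k, hk1, hk2, e,
    by rw [eg, Rinv _ _ (okt _ _ h hη), hRb _ _ (hst _ _ (okt _ _ h hη))], hc⟩

end Cfsg.Agent.H1.BN
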